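import Cfsg.Agent.R2.T2.Orb.Sub
import Cfsg.Agent.R2.T2.Orb.Last
import Cfsg.Agent.R2.T1.N6L.Bc3

/-!
# S5929, orbit box, `p = 3`: no fixed vectors on the adjoint module (helper2)
-/

set_option autoImplicit false
set_option linter.unusedSectionVars false
set_option maxRecDepth 100000

namespace Cfsg.Agent.R2.T2.Orb

open Cfsg Cfsg.Lie Module Matrix
open Cfsg.Agent.R2.T1 Cfsg.Agent.R2.PX Cfsg.Agent.R2.T1.Mu Cfsg.Agent.R2.T2.Alg
open Cfsg.Agent.H943.E7V.Block (D1 rho)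
open Cfsg.Agent.H943.RepAdd (subRep)
open Cfsg.Agent.H952.F4 (ev es MaxAlt)
open Cfsg.Agent.R2.T1.N6L (Dat exists_mu exists_simple)

universe u

variable {F : Type u} [Field F] {H : Subgroup ↥(chevE7.group F)}
variable {φ : ↥(alternatingGroup (Fin 6)) →* ↥(chevE7.group F)} {ψ : ↥(alternatingGroup (Fin 6)) →* Gh F}

/-- **the orbit box for `p = 3`** -/
theorem no_inv_three [Finite F] (hM : MaxAlt H 6 φ) (hL : Lift φ ψ) (h3 : (3 : F) = 0) (hc : Nat.card ↥H ≤ 720)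
    (hq : 9 ≤ Nat.card F) {τ : F} {a b : ↥(alternatingGroup (Fin 6))}
    (hd : Dat ψ τ a b 24 12 12 10 12 ∨ Dat ψ τ a b 32 12 12 12 10) :
    Representation.invariants (MonoidHom.comp (L F) ψ) = ⊥ := by
  by_contra hne
  have hCh : CharP F 3 := charP_three h3
  have h2 : (2 : F) ≠ 0 := by
    intro h2
    apply one_ne_zero (α := F)
    linear_combination h3 - h2
  obtain ⟨hτ, ha, hb, hd'⟩ : τ * τ + τ - 1 = 0 ∧ orderOf a = 5 ∧ orderOf b = 4 ∧
      ((ev (V F (ψ (b * b))) 1 = 24 ∧ ev (V F (ψ b)) 1 = 12) ∨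
      (ev (V F (ψ (b * b))) 1 = 32 ∧ ev (V F (ψ b)) 1 = 12)) := by
    rcases hd with h | h
    · exact ⟨h.hτ, h.oa, h.ob, Or.inl ⟨h.two, h.four⟩⟩
    · exact ⟨h.hτ, h.oa, h.ob, Or.inr ⟨h.two, h.four⟩⟩
  have hi : (τ - 1) * (τ - 1) = -1 := by linear_combination hτ + (1 - τ) * h3
  obtain ⟨h9, U, hU1, hU3, hcomm, hker, hrel⟩ := exists_U hM hL h3 hc hq hi hne
  have hpow : ∀ n : ℕ, Matrix.toLin' (U ^ n) = (Matrix.toLin' U) ^ n := fun n => Matrix.toLin'_pow U n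
  refine last (ρ := (MonoidHom.comp (V F) ψ : Representation F ↥(alternatingGroup (Fin 6)) (D1 → F))) h2 h9 hi (τ := τ)
    (a := a) (T := Matrix.toLin' U) ?_ finrank_V ?_ hker ?_ (sf F) ?_ (fun y h => sf_nondeg h) ?_ ?_ ?_ ?_ hb hd'
  · intro g x
    show V F (ψ g) (Matrix.toLin' U x) = Matrix.toLin' U (V F (ψ g) x)
    rw [Matrix.toLin'_apply, Matrix.toLin'_apply, V_apply, V_apply, Matrix.mulVec_mulVec, Matrix.mulVec_mulVec, hcomm]
  · intro y hy
    have h1 := no_fixed hM (by norm_num) (by norm_num) hL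
    have h4 : y ∈ Representation.invariants (MonoidHom.comp (V F) ψ) := hy
    rw [h1] at h4
    exact (Submodule.mem_bot F).1 h4
  · rw [← hpow, Matrix.trace_toLin'_eq, show U ^ 4 = U * U ^ 3 from pow_succ' U 3]
    exact trace_mul (by linear_combination 4 * h3) hU1 hU3
  · intro g x y
    exact sf_V (ψ g) x y
  · intro x y
    obtain ⟨z, rfl⟩ := mem_LR.1 hU1
    rw [Matrix.toLin'_apply, Matrix.toLin'_apply]
    exact sf_del z x y
  · rcases hrel with ⟨l, hl, hl'⟩ | ⟨a', b', c', h, hl⟩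
    · left
      refine ⟨l, ?_, hl'⟩
      rw [← hpow, hl, map_smul]
    · right
      refine ⟨a', b', c', h, ?_⟩
      rw [← hpow, ← hpow, ← hpow, ← map_smul, ← map_smul, ← map_smul, ← map_add, ← map_add, ← map_add, hl, map_zero]
  · intro W hW
    exact exists_mu h3 hτ ha _
  · intro W hW hW0
    have hnt : Nontrivial ↥W := (Submodule.nontrivial_iff_ne_bot).2 hW0
    obtain ⟨W', hW', h0, h⟩ := exists_simple h3 hτ ha (subRep (MonoidHom.comp (V F) ψ :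
      Representation F ↥(alternatingGroup (Fin 6)) (D1 → F)) W hW)
    refine ⟨W', hW', h0, ?_⟩
    rcases h with h | h | h | h | h
    · exact ⟨1, 0, 0, 0, 0, rfl, h⟩
    · exact ⟨0, 1, 0, 0, 0, rfl, h⟩
    · exact ⟨0, 0, 1, 0, 0, rfl, h⟩
    · exact ⟨0, 0, 0, 1, 0, rfl, h⟩
    · exact ⟨0, 0, 0, 0, 1, rfl, h⟩

end Cfsg.Agent.R2.T2.Orb
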